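import Mathlib

/-!
# Packet EXO-IIA (S3435): perfect powers, the finite check (helper4)

`q ^ n * |y - 1| = |2 y ^ m - y - 1|`, `|y - 1| ∣ m`.
-/

set_option autoImplicit false

namespace Cfsg.Agent.R2.Spec.IIA

/-- no `s` in `[r, r + 2 ^ i)` with `s ^ n = V` -/
def goR (V n : ℕ) : ℕ → ℕ → Bool
  | 0, r => !(Nat.beq (r ^ n) V)
  | i + 1, r => cond (Nat.ble ((r + 2 ^ i) ^ n) V) (goR V n i (r + 2 ^ i)) (goR V n i r)

theorem goR_spec {V n : ℕ} (hn : 1 ≤ n) : ∀ (i r : ℕ), goR V n i r = true → ∀ s, r ≤ s → s < r + 2 ^ i → s ^ n ≠ V := by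
  intro i
  induction i with
  | zero =>
    intro r h s h1 h2 h3
    have : s = r := by rw [pow_zero] at h2; omega
    rw [this] at h3
    simp [goR, h3] at h
  | succ i ih =>
    intro r h s h1 h2
    rw [goR] at h
    cases hc : Nat.ble ((r + 2 ^ i) ^ n) V with
    | true =>
      rw [hc, cond_true] at h
      have h4 : (r + 2 ^ i) ^ n ≤ V := Nat.le_of_ble_eq_true hc
      rcases Nat.lt_or_ge s (r + 2 ^ i) with h5 | h5
      · have := Nat.pow_lt_pow_left h5 (by omega : n ≠ 0)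
        omega
      · exact ih _ h s h5 (by rw [pow_succ] at h2; omega)
    | false =>
      rw [hc, cond_false] at h
      have h4 : V < (r + 2 ^ i) ^ n := by
        by_contra hcon
        push Not at hcon
        rw [Nat.ble_eq_true_of_le hcon] at hc
        exact Bool.noConfusion hc
      rcases Nat.lt_or_ge s (r + 2 ^ i) with h5 | h5
      · exact ih _ h s h1 h5
      · have := Nat.pow_le_pow_left h5 n
        omega

/-- not an `n`-th power -/
def notPow (V n : ℕ) : Bool := goR V n (Nat.log2 V / n + 1) 0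

theorem notPow_spec {V n : ℕ} (hn : 1 ≤ n) (h : notPow V n = true) (s : ℕ) : s ^ n ≠ V := by
  intro hs
  refine goR_spec hn _ _ h s (Nat.zero_le _) ?_ hs
  rw [zero_add]
  by_contra hcon
  push Not at hcon
  have h1 := Nat.pow_le_pow_left hcon n
  rw [← pow_mul, hs] at h1
  have h2 : V < 2 ^ (Nat.log2 V + 1) := by
    rw [Nat.log2_eq_log_two]
    exact Nat.lt_pow_succ_log_self (by norm_num) V
  have h3 : Nat.log2 V + 1 ≤ (Nat.log2 V / n + 1) * n := by
    have := Nat.lt_div_mul_add (a := Nat.log2 V) (b := n) (by omega)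
    rw [add_mul, one_mul]
    omega
  have h4 : 2 ^ (Nat.log2 V + 1) ≤ 2 ^ ((Nat.log2 V / n + 1) * n) := Nat.pow_le_pow_right (by norm_num) h3
  omega

/-- all odd (even) exponents -/
def goN (V : ℕ) : ℕ → ℕ → Bool
  | 0, n => Nat.blt V (3 ^ n)
  | f + 1, n => Nat.blt V (3 ^ n) || (notPow V n && goN V f (n + 2))

theorem goN_spec {V : ℕ} : ∀ (f n0 : ℕ), 1 ≤ n0 → goN V f n0 = true → ∀ n, n0 ≤ n → n % 2 = n0 % 2 → ∀ q, 3 ≤ q →
    q ^ n ≠ V := by
  have key : ∀ n0 n q : ℕ, n0 ≤ n → 3 ≤ q → Nat.blt V (3 ^ n0) = true → q ^ n ≠ V := by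
    intro n0 n q h1 h2 h3 h4
    have h5 : V < 3 ^ n0 := by simpa [Nat.blt] using h3
    have h6 : 3 ^ n0 ≤ 3 ^ n := Nat.pow_le_pow_right (by norm_num) h1
    have h7 : 3 ^ n ≤ q ^ n := Nat.pow_le_pow_left h2 n
    omega
  intro f
  induction f with
  | zero =>
    intro n0 _ h n hn _ q hq
    exact key n0 n q hn hq h
  | succ f ih =>
    intro n0 h0 h n hn hpar q hq
    rw [goN, Bool.or_eq_true, Bool.and_eq_true] at h
    rcases h with h | ⟨h1, h2⟩
    · exact key n0 n q hn hq h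
    · rcases Nat.eq_or_lt_of_le hn with rfl | hlt
      · exact notPow_spec h0 h1 q
      · exact ih _ (by omega) h2 n (by omega) (by omega) q hq

/-- `|2 y ^ m - y - 1| / |y - 1|`, `y = u` -/
def VP (m u : ℕ) : ℕ := (2 * u ^ m - u - 1) / (u - 1)
/-- `|2 y ^ m - y - 1| / |y - 1|`, `y = -u` -/
def VM (m u : ℕ) : ℕ := (if m % 2 = 0 then 2 * u ^ m + u - 1 else 2 * u ^ m + 1 - u) / (u + 1)

/-- the loop -/
def lpU (P : ℕ → Bool) (m : ℕ) : Bool :=
  (List.range (m + 2)).all fun u => Nat.ble u 1 ||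
    ((!(Nat.beq (m % (u - 1)) 0) || P (VP m u)) && (!(Nat.beq (m % (u + 1)) 0) || P (VM m u)))

/-- membership -/
def mem' (x : ℕ) : List ℕ → Bool
  | [] => false
  | a :: l => Nat.beq x a || mem' x l

theorem mem'_iff {x : ℕ} {l : List ℕ} : mem' x l = true ↔ x ∈ l := by
  induction l with
  | nil => simp [mem']
  | cons a l ih => simp [mem', ih]

/-- the lists contain the `n`-th powers -/
def okL (n : ℕ) (Ls : List (ℕ × List ℕ)) : Bool :=
  Ls.all fun A => (List.range A.1).all fun r => mem' (r ^ n % A.1) A.2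

/-- sieve -/
def sv (Ls : List (ℕ × List ℕ)) (V : ℕ) : Bool := Ls.any fun A => !(mem' (V % A.1) A.2)

theorem sv_spec {n : ℕ} {Ls : List (ℕ × List ℕ)} (h1 : okL n Ls = true) (h0 : Ls.all (fun A => Nat.blt 0 A.1) = true)
    {V : ℕ} (h2 : sv Ls V = true) (s : ℕ) : s ^ n ≠ V := by
  rintro rfl
  obtain ⟨A, hA, hA2⟩ := List.any_eq_true.1 h2
  have h3 : 0 < A.1 := by
    have h5 := List.all_eq_true.1 h0 A hA
    have h6 : 1 ≤ A.1 := by simpa [Nat.blt] using h5
    omega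
  have h4 := List.all_eq_true.1 (List.all_eq_true.1 h1 A hA) (s % A.1) (List.mem_range.2 (Nat.mod_lt _ h3))
  rw [← Nat.pow_mod] at h4
  rw [h4] at hA2
  exact Bool.noConfusion hA2

def L5 : List (ℕ × List ℕ) := [(11, [0, 1, 10]),
  (31, [0, 1, 5, 6, 25, 26, 30]),
  (41, [0, 1, 3, 9, 14, 27, 32, 38, 40]),
  (61, [0, 1, 11, 13, 14, 21, 29, 32, 40, 47, 48, 50, 60]),
  (71, [0, 1, 20, 23, 26, 30, 32, 34, 37, 39, 41, 45, 48, 51, 70]),
  (101, [0, 1, 6, 10, 14, 17, 32, 36, 39, 41, 44, 57, 60, 62, 65, 69, 84, 87, 91, 95, 100]),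
  (131, [0, 1, 18, 19, 24, 32, 39, 45, 47, 51, 52, 60, 62, 63, 68, 69, 71, 79, 80, 84, 86, 92, 99, 107, 112, 113, 130]),
  (151, [0, 1, 2, 4, 8, 16, 19, 23, 32, 33, 38, 46, 59, 64, 66, 75, 76, 85, 87, 92, 105, 113, 118, 119, 128, 132, 135, 143, 147, 149, 150]),
  (191, [0, 1, 5, 6, 11, 14, 25, 30, 31, 32, 36, 37, 38, 41, 52, 55, 66, 69, 70, 84, 107, 121, 122, 125, 136, 139, 150, 153, 154, 155, 159, 160, 161, 166, 177, 180, 185, 186, 190])]

def L7 : List (ℕ × List ℕ) := [(29, [0, 1, 12, 17, 28]),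
  (43, [0, 1, 6, 7, 36, 37, 42]),
  (71, [0, 1, 5, 14, 17, 25, 46, 54, 57, 66, 70]),
  (113, [0, 1, 15, 18, 35, 40, 42, 44, 48, 65, 69, 71, 73, 78, 95, 98, 112]),
  (127, [0, 1, 19, 20, 22, 24, 28, 37, 52, 59, 68, 75, 90, 99, 103, 105, 107, 108, 126]),
  (197, [0, 1, 6, 14, 19, 20, 33, 36, 68, 69, 77, 83, 84, 87, 93, 104, 110, 113, 114, 120, 128, 129, 161, 164, 177, 178, 183, 191, 196]),
  (211, [0, 1, 10, 14, 15, 19, 21, 23, 55, 61, 71, 74, 77, 83, 100, 104, 107, 111, 128, 134, 137, 140, 150, 156, 188, 190, 192, 196, 197, 201, 210]),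
  (239, [0, 1, 6, 22, 23, 28, 36, 40, 51, 52, 67, 71, 73, 75, 76, 101, 107, 111, 128, 132, 138, 163, 164, 166, 168, 172, 187, 188, 199, 203, 211, 216, 217, 233, 238]),
  (281, [0, 1, 7, 40, 49, 53, 60, 61, 62, 67, 68, 86, 89, 90, 93, 102, 128, 129, 130, 135, 139, 142, 146, 151, 152, 153, 179, 188, 191, 192, 195, 213, 214, 219, 220, 221, 228, 232, 241, 274, 280]),
  (337, [0, 1, 30, 38, 40, 54, 59, 65, 72, 85, 96, 105, 111, 117, 128, 129, 133, 138, 140, 146, 148, 153, 156, 163, 165, 172, 174, 181, 184, 189, 191, 197, 199, 204, 208, 209, 220, 226, 232, 241, 252, 265, 272, 278, 283, 297, 299, 307, 336]),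
  (379, [0, 1, 11, 24, 40, 51, 52, 61, 69, 79, 84, 85, 87, 107, 108, 111, 115, 121, 128, 140, 145, 151, 166, 177, 180, 182, 185, 186, 193, 194, 197, 199, 202, 213, 228, 234, 239, 251, 258, 264, 268, 271, 272, 292, 294, 295, 300, 310, 318, 327, 328, 339, 355, 368, 378])]

def L9 : List (ℕ × List ℕ) := [(19, [0, 1, 18]),
  (37, [0, 1, 6, 31, 36]),
  (73, [0, 1, 10, 22, 27, 46, 51, 63, 72]),
  (109, [0, 1, 8, 33, 41, 45, 46, 63, 64, 68, 76, 101, 108]),
  (127, [0, 1, 2, 4, 8, 16, 32, 63, 64, 95, 111, 119, 123, 125, 126]),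
  (163, [0, 1, 23, 30, 38, 40, 53, 58, 59, 78, 85, 104, 105, 110, 123, 125, 133, 140, 162]),
  (181, [0, 1, 19, 22, 31, 35, 42, 46, 56, 59, 74, 107, 122, 125, 135, 139, 146, 150, 159, 162, 180]),
  (199, [0, 1, 11, 18, 60, 61, 62, 63, 74, 78, 85, 96, 103, 114, 121, 125, 136, 137, 138, 139, 181, 188, 198]),
  (271, [0, 1, 3, 9, 10, 19, 27, 28, 29, 30, 57, 81, 84, 87, 90, 100, 171, 181, 184, 187, 190, 214, 241, 242, 243, 244, 252, 261, 262, 268, 270]),
  (379, [0, 1, 5, 25, 39, 51, 52, 57, 68, 76, 86, 91, 93, 94, 119, 124, 125, 133, 138, 162, 163, 184, 195, 216, 217, 241, 246, 254, 255, 260, 285, 286, 288, 293, 303, 311, 322, 327, 328, 340, 354, 374, 378]),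
  (397, [0, 1, 2, 4, 8, 16, 31, 32, 62, 63, 64, 99, 107, 115, 124, 126, 128, 141, 145, 149, 167, 183, 198, 199, 214, 230, 248, 252, 256, 269, 271, 273, 282, 290, 298, 333, 334, 335, 365, 366, 381, 389, 393, 395, 396])]

theorem ok5 : okL 5 L5 = true := by decide +kernel
theorem ok7 : okL 7 L7 = true := by decide +kernel
theorem ok9 : okL 9 L9 = true := by decide +kernel

/-- not an `n`-th power: sieve or roots -/
def pw (n : ℕ) (Ls : List (ℕ × List ℕ)) (V : ℕ) : Bool := sv Ls V || notPow V n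

theorem ck5 : ((List.range 225).all fun m => Nat.ble m 1 || lpU (pw 5 L5) m) = true := by decide +kernel
theorem ck7 : ((List.range 125).all fun m => Nat.ble m 1 || lpU (pw 7 L7) m) = true := by decide +kernel
theorem ck9 : ((List.range 105).all fun m => Nat.ble m 1 || lpU (pw 9 L9) m) = true := by decide +kernel
theorem ck11 : ((List.range 105).all fun m => Nat.ble m 1 || lpU (fun V => goN V 300 11) m) = true := by decide +kernel

theorem pw_spec {n : ℕ} (hn : 1 ≤ n) {Ls : List (ℕ × List ℕ)} (h1 : okL n Ls = true)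
    (h0 : Ls.all (fun A => Nat.blt 0 A.1) = true) {V : ℕ} (h2 : pw n Ls V = true) (s : ℕ) : s ^ n ≠ V := by
  rw [pw, Bool.or_eq_true] at h2
  rcases h2 with h2 | h2
  · exact sv_spec h1 h0 h2 s
  · exact notPow_spec hn h2 s

theorem lpU_spec {P : ℕ → Bool} {m u : ℕ} (h : lpU P m = true) (hu : 2 ≤ u) (hum : u < m + 2) :
    (u - 1 ∣ m → P (VP m u) = true) ∧ (u + 1 ∣ m → P (VM m u) = true) := by
  rw [lpU, List.all_eq_true] at h
  have h1 := h u (List.mem_range.2 hum)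
  rw [Bool.or_eq_true, Bool.and_eq_true, Bool.or_eq_true, Bool.or_eq_true] at h1
  rcases h1 with h1 | ⟨h1, h2⟩
  · have := Nat.le_of_ble_eq_true h1
    omega
  · refine ⟨fun hd => ?_, fun hd => ?_⟩
    · rcases h1 with h1 | h1
      · rw [Nat.mod_eq_zero_of_dvd hd] at h1
        exact absurd h1 (by decide)
      · exact h1
    · rcases h2 with h1 | h1
      · rw [Nat.mod_eq_zero_of_dvd hd] at h1
        exact absurd h1 (by decide)
      · exact h1

theorem ck_spec {P : ℕ → Bool} {B m : ℕ} (h : ((List.range B).all fun m => Nat.ble m 1 || lpU P m) = true) (hm : 2 ≤ m)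
    (hB : m < B) : lpU P m = true := by
  rw [List.all_eq_true] at h
  have h1 := h m (List.mem_range.2 hB)
  rw [Bool.or_eq_true] at h1
  rcases h1 with h1 | h1
  · have := Nat.le_of_ble_eq_true h1
    omega
  · exact h1

/-- **The finite check.** -/
theorem fin_check {n m u V q : ℕ} (hn : n % 2 = 1) (h5 : 5 ≤ n) (hm : 2 ≤ m) (hq : 3 ≤ q) (hu : 2 ≤ u) (hum : u < m + 2)
    (hV : (u - 1 ∣ m ∧ V = VP m u) ∨ (u + 1 ∣ m ∧ V = VM m u)) (hqV : q ^ n = V)
    (hb : (n = 5 ∧ m < 225) ∨ (n = 7 ∧ m < 125) ∨ (9 ≤ n ∧ m < 105)) : False := by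
  have key : ∀ {P : ℕ → Bool} {B : ℕ}, ((List.range B).all fun m => Nat.ble m 1 || lpU P m) = true → m < B →
      P V = true := by
    intro P B h1 h2
    obtain ⟨h3, h4⟩ := lpU_spec (ck_spec h1 hm h2) hu hum
    rcases hV with ⟨h5, rfl⟩ | ⟨h5, rfl⟩
    · exact h3 h5
    · exact h4 h5
  rcases hb with ⟨rfl, hb⟩ | ⟨rfl, hb⟩ | ⟨h9, hb⟩
  · exact pw_spec (by norm_num) ok5 (by decide) (key ck5 hb) q hqV
  · exact pw_spec (by norm_num) ok7 (by decide) (key ck7 hb) q hqV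
  · rcases Nat.lt_or_ge n 11 with h | h
    · obtain rfl : n = 9 := by omega
      exact pw_spec (by norm_num) ok9 (by decide) (key ck9 hb) q hqV
    · exact goN_spec 300 11 (by norm_num) (key ck11 hb) n h (by omega) q hq hqV

end Cfsg.Agent.R2.Spec.IIA
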